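import Cfsg.Agent.H437.Small3
set_option autoImplicit false
namespace Cfsg.Agent.H437
open Finset

theorem two_le_log {n : ℕ} (h : 4 ≤ n) : 2 ≤ Nat.log 2 n :=
  Nat.le_log_of_pow_le (by norm_num) (by simpa using h)

theorem three_le_log {n : ℕ} (h : 8 ≤ n) : 3 ≤ Nat.log 2 n :=
  Nat.le_log_of_pow_le (by norm_num) (by simpa using h)

/-- the orders of the simple groups of Lie type are not perfect powers, apart from squares for `PSp₄(p)` -/
theorem IsOrd.pow_prime {T : LT} {p f N m l : ℕ} (h : IsOrd T p f N) (hl : l.Prime) (hN : N = m ^ l) :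
    l = 2 ∧ T = .C 2 ∧ f = 1 ∧ ∃ z, p ^ 2 + 1 = 2 * z ^ 2 := by
  by_cases hl2 : l = 2
  · subst hl2
    cases T with
    | A n =>
      exfalso
      have hn : 2 ≤ n := h.valid.1
      rcases (by omega : n = 2 ∨ n = 3 ∨ n = 4 ∨ n = 5 ∨ n = 6 ∨ n = 7 ∨ 8 ≤ n) with rfl | rfl | rfl | rfl | rfl | rfl | hn
      · exact no_A2 h hl hN
      · exact no_A3 h hl hN
      · exact no_A4_sq h hN
      · exact no_A5_sq h hN
      · exact h.fac_two hN (two_le_log (by norm_num)) (fac_A (by norm_num)) (.inr (.inr (by decide)))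
      · exact h.fac_two hN (two_le_log (by norm_num)) (fac_A (by norm_num)) (.inr (.inr (by decide)))
      · exact h.fac_two hN (two_le_log (by omega)) (fac_A (by omega)) (.inr (.inl (three_le_log hn)))
    | U n =>
      exfalso
      have hn : 3 ≤ n := h.valid.1
      rcases (by omega : n = 3 ∨ n = 4 ∨ n = 5 ∨ n = 6 ∨ n = 7 ∨ 8 ≤ n) with rfl | rfl | rfl | rfl | rfl | hn
      · exact no_U3 h hl hN
      · exact no_U4_sq h hN
      · exact no_U5_sq h hN
      · exact h.fac_two hN (two_le_log (by norm_num)) (fac_U (by norm_num)) (.inr (.inr (by decide)))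
      · exact h.fac_two hN (two_le_log (by norm_num)) (fac_U (by norm_num)) (.inr (.inr (by decide)))
      · exact h.fac_two hN (two_le_log (by omega)) (fac_U (by omega)) (.inr (.inl (three_le_log hn)))
    | C n =>
      have hn : 2 ≤ n := h.valid.1
      rcases (by omega : n = 2 ∨ n = 3 ∨ 4 ≤ n) with rfl | rfl | hn
      · have hF := fac_C (q := p ^ f) (m := 2) le_rfl
        rw [show Nat.log 2 (2 * 2) = 2 by decide] at hF
        have hodd := h.odd_q hN le_rfl hF
        obtain ⟨c, z, hz, -, hc, -⟩ := h.fac_sq hN le_rfl hF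
        rw [hc hodd, show 2 ^ (2 - 1) = 2 from rfl] at hz
        have hp2 : p ≠ 2 := by
          rintro rfl
          have := Nat.mod_eq_zero_of_dvd (dvd_pow_self 2 h.f_ne)
          omega
        have hf := pell_prime h.prime hp2 h.f_ne hz
        refine ⟨rfl, rfl, hf, z, ?_⟩
        rw [hf, pow_one] at hz
        exact hz
      · exact (h.fac_two hN (two_le_log (by norm_num)) (fac_C (by norm_num)) (.inr (.inr (by decide)))).elim
      · exact (h.fac_two hN (two_le_log (by omega)) (fac_C (by omega)) (.inr (.inl (three_le_log (by omega))))).elim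
    | P n =>
      exfalso
      have hn : 4 ≤ n := h.valid
      by_cases hpow : n = 2 ^ Nat.log 2 (2 * (n - 1))
      · by_cases h4 : n = 4
        · subst h4; exact no_P4_sq h hN
        · exact no_P_two_pow_sq h hN (three_le_log (by omega)) hpow
      · refine h.fac_two hN (two_le_log (by omega)) (fac_P_one hn hpow) (.inr (.inl (three_le_log ?_)))
        by_contra hcon
        have : n = 4 := by omega
        subst this
        exact hpow (by decide)
    | M n =>
      exfalso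
      have hn : 4 ≤ n := h.valid
      by_cases h4 : n = 4
      · subst h4; exact h.fac_two hN (by norm_num) fac_M4 (.inr (.inl le_rfl))
      · exact h.fac_two hN (two_le_log (by omega)) (fac_M hn) (.inr (.inl (three_le_log (by omega))))
    | G2 => exact (no_G2 h hl hN).elim
    | F4 => exact (h.fac_two hN (by norm_num) fac_F4 (.inr (.inl le_rfl))).elim
    | E6 => exact (h.fac_two hN (by norm_num) fac_E6 (.inr (.inl le_rfl))).elim
    | E7 => exact (h.fac_two hN (by norm_num) fac_E7 (.inr (.inl le_rfl))).elim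
    | E8 => exact (no_E8_sq h hN).elim
    | TE6 => exact (h.fac_two hN (by norm_num) fac_TE6 (.inr (.inl le_rfl))).elim
    | TD4 => exact (no_TD4 h hl hN).elim
    | Sz => exact (h.fac_two hN (by norm_num) fac_Sz (.inl h.valid.1)).elim
    | Ree => exact (no_Ree h hl hN).elim
    | TF4 => exact (no_TF4_sq h hN).elim
  · exfalso
    cases T with
    | A n =>
      have hn : 2 ≤ n := h.valid.1
      rcases (by omega : n = 2 ∨ n = 3 ∨ 4 ≤ n) with rfl | rfl | hn
      · exact no_A2 h hl hN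
      · exact no_A3 h hl hN
      · exact h.fac_odd hl hl2 hN (two_le_log hn) (.inl rfl) (fac_A hn)
    | U n =>
      have hn : 3 ≤ n := h.valid.1
      rcases (by omega : n = 3 ∨ 4 ≤ n) with rfl | hn
      · exact no_U3 h hl hN
      · exact h.fac_odd hl hl2 hN (two_le_log hn) (.inl rfl) (fac_U hn)
    | C n =>
      have hn : 2 ≤ n := h.valid.1
      exact h.fac_odd hl hl2 hN (two_le_log (by omega)) (.inl rfl) (fac_C hn)
    | P n =>
      have hn : 4 ≤ n := h.valid
      by_cases hpow : n = 2 ^ Nat.log 2 (2 * (n - 1))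
      · exact h.fac_odd hl hl2 hN (two_le_log (by omega)) (.inr rfl) (fac_P_two hn hpow)
      · exact h.fac_odd hl hl2 hN (two_le_log (by omega)) (.inl rfl) (fac_P_one hn hpow)
    | M n =>
      have hn : 4 ≤ n := h.valid
      exact h.fac_odd hl hl2 hN (two_le_log (by omega)) (.inl rfl) (fac_M hn)
    | G2 => exact no_G2 h hl hN
    | F4 => exact h.fac_odd hl hl2 hN (by norm_num) (.inl rfl) fac_F4
    | E6 => exact h.fac_odd hl hl2 hN (by norm_num) (.inl rfl) fac_E6
    | E7 => exact h.fac_odd hl hl2 hN (by norm_num) (.inl rfl) fac_E7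
    | E8 => exact h.fac_odd hl hl2 hN (by norm_num) (.inr rfl) fac_E8
    | TE6 => exact h.fac_odd hl hl2 hN (by norm_num) (.inl rfl) fac_TE6
    | TD4 => exact no_TD4 h hl hN
    | Sz => exact h.fac_odd hl hl2 hN (by norm_num) (.inl rfl) fac_Sz
    | Ree => exact no_Ree h hl hN
    | TF4 => exact h.fac_odd hl hl2 hN (by norm_num) (.inr rfl) fac_TF4

theorem IsOrd.not_fourth {T : LT} {p f N m : ℕ} (h : IsOrd T p f N) (hN : N = m ^ 4) : False := by
  obtain ⟨-, hT, hf, z, hz⟩ := h.pow_prime (m := m ^ 2) Nat.prime_two (by rw [hN, ← pow_mul])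
  subst hT hf
  have heq := h.eq
  have hp2 : p % 2 = 1 := by
    rcases h.prime.eq_two_or_odd with h2 | h2
    · subst h2; omega
    · exact h2
  have h3 : 3 ≤ p := by have := h.prime.two_le; omega
  have e1 : (LT.C 2).cof (p ^ 1) = (p ^ 2 - 1) * (p ^ 4 - 1) := by
    simp [LT.cof, Finset.prod_range_succ]
  rw [e1, show (LT.C 2).expo = 4 from rfl, show (LT.C 2).dd (p ^ 1) = Nat.gcd 2 (p ^ 1 - 1) from rfl, hN, pow_one,
    show Nat.gcd 2 (p - 1) = 2 from Nat.gcd_eq_left (by omega), four_sub, hz] at heq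
  have hz0 : 0 < z := by
    rcases Nat.eq_zero_or_pos z with h0 | h0
    · rw [h0] at hz; omega
    · exact h0
  have h9 : 9 ≤ p ^ 2 := by nlinarith
  have hK : 0 < p ^ 2 - 1 := by omega
  have h5 : m ^ 4 = (p ^ 2 * (p ^ 2 - 1) * z) ^ 2 := by
    have : 2 * m ^ 4 = 2 * (p ^ 2 * (p ^ 2 - 1) * z) ^ 2 := by rw [heq]; ring
    omega
  have h6 : m ^ 2 = p ^ 2 * (p ^ 2 - 1) * z := by
    rw [show m ^ 4 = (m ^ 2) ^ 2 by rw [← pow_mul]] at h5
    exact Nat.pow_left_injective (by norm_num : 2 ≠ 0) h5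
  have h7 : m ^ 2 = p ^ 2 * ((p ^ 2 - 1) * z) := by rw [h6]; ring
  obtain ⟨y, hy⟩ := pow_of_mul_pow (by norm_num) h.prime.pos h7
  -- z is odd and prime to p^2-1
  have hcop : Nat.Coprime (p ^ 2 - 1) z := by
    rw [Nat.coprime_iff_gcd_eq_one]
    by_contra hg
    obtain ⟨r, hr, hrg⟩ := Nat.exists_prime_and_dvd hg
    have h8 : r ∣ p ^ 2 - 1 := hrg.trans (Nat.gcd_dvd_left _ _)
    have h9 : r ∣ z := hrg.trans (Nat.gcd_dvd_right _ _)
    have h10 : r ∣ z ^ 2 := dvd_pow h9 (by norm_num)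
    have h11 : p ^ 2 + 1 = (p ^ 2 - 1) + 2 := by omega
    have h12 : r ∣ 2 := by
      have : r ∣ (p ^ 2 - 1) + 2 := by rw [← h11, hz]; exact Dvd.dvd.mul_left h10 2
      exact (Nat.dvd_add_right h8).1 this
    rw [Nat.prime_dvd_prime_iff_eq hr Nat.prime_two] at h12
    subst h12
    obtain ⟨k, rfl⟩ := h9
    obtain ⟨a, ha⟩ : ∃ a, p = 2 * a + 1 := ⟨p / 2, by omega⟩
    rw [ha] at hz
    ring_nf at hz
    omega
  obtain ⟨u, hu⟩ := pow_of_mul hcop hy
  have hu0 : 1 ≤ u := by
    rcases Nat.eq_zero_or_pos u with h0 | h0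
    · rw [h0] at hu; omega
    · exact h0
  exact not_consecutive_squares hu0 (show u ^ 2 + 1 = p ^ 2 by omega)

/-! ### alternating groups -/

theorem fact_not_pow {n N m k : ℕ} (hn : 5 ≤ n) (hk : 2 ≤ k) (h : 2 * N = n.factorial) : N ≠ m ^ k := by
  obtain ⟨r, hr, h1, h2⟩ := Nat.exists_prime_lt_and_le_two_mul (n / 2) (by omega)
  have hr3 : 3 ≤ r := by omega
  have hrn : r ∣ n.factorial := (Nat.Prime.dvd_factorial hr).2 (by omega)
  have hr2 : ¬ r ^ 2 ∣ n.factorial := by
    have hF := Fact.mk hr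
    intro h3
    have h4 := (padicValNat_dvd_iff_le (p := r) (Nat.factorial_ne_zero n)).1 h3
    have h5 : n < r ^ 2 := by
      have : 3 * r ≤ r * r := Nat.mul_le_mul_right r hr3
      rw [pow_two]
      omega
    rw [padicValNat_factorial (b := 2) (Nat.log_lt_of_lt_pow (by omega) h5)] at h4
    simp at h4
    have h6 : n / r ≤ 1 := by
      rw [Nat.div_le_iff_le_mul_add_pred (by omega)]
      omega
    omega
  apply not_pow_of_prime hr ?_ ?_ hk
  · rw [← h] at hrn
    exact ((Nat.coprime_primes hr Nat.prime_two).2 (by omega)).dvd_of_dvd_mul_left hrn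
  · intro h3
    exact hr2 (by rw [← h]; exact Dvd.dvd.mul_left h3 2)

theorem prime_not_pow {N m k : ℕ} (h1 : N.Prime) (hk : 2 ≤ k) : N ≠ m ^ k :=
  not_pow_of_prime h1 dvd_rfl (fun h2 => by
    have := Nat.le_of_dvd h1.pos h2
    have h3 := h1.two_le
    nlinarith) hk

/-- the order of a simple group of Lie type is not a `k`-th power for `k ≥ 3` -/
theorem IsOrd.not_pow {T : LT} {p f N m k : ℕ} (h : IsOrd T p f N) (hk : 3 ≤ k) : N ≠ m ^ k := by
  intro hN
  rcases Nat.eq_two_pow_or_exists_odd_prime_and_dvd k with ⟨a, ha⟩ | ⟨l, hl, hlk, hodd⟩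
  · have ha2 : 2 ≤ a := by
      by_contra hcon
      have : 2 ^ a ≤ 2 ^ 1 := Nat.pow_le_pow_right (by norm_num) (by omega)
      omega
    obtain ⟨b, rfl⟩ := Nat.exists_eq_add_of_le ha2
    refine h.not_fourth (m := m ^ 2 ^ b) ?_
    rw [hN, ha, ← pow_mul, pow_add]
    congr 1
    ring
  · obtain ⟨b, rfl⟩ := hlk
    have := (h.pow_prime (m := m ^ b) hl (by rw [hN, ← pow_mul, mul_comm])).1
    rw [this] at hodd
    exact absurd hodd (by decide)

/-- the order of `PSp₄(p)` is a square if `p ^ 2 + 1` is twice a square -/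
theorem sq_of_pell {N p y : ℕ} (hp : p.Prime) (hy : p ^ 2 + 1 = 2 * y ^ 2)
    (h1 : (LT.C 2).dd p * N = p ^ (LT.C 2).expo * (LT.C 2).cof p) : ∃ m, N = m ^ 2 := by
  have e1 : (LT.C 2).cof p = (p ^ 2 - 1) * (p ^ 4 - 1) := by
    simp [LT.cof, Finset.prod_range_succ]
  have hp2 : p % 2 = 1 := by
    rcases hp.eq_two_or_odd with h2 | h2
    · subst h2; omega
    · exact h2
  rw [e1, show (LT.C 2).expo = 4 from rfl, show (LT.C 2).dd p = Nat.gcd 2 (p - 1) from rfl,
    show Nat.gcd 2 (p - 1) = 2 from Nat.gcd_eq_left (by omega), four_sub, hy] at h1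
  refine ⟨p ^ 2 * (p ^ 2 - 1) * y, ?_⟩
  have : 2 * N = 2 * (p ^ 2 * (p ^ 2 - 1) * y) ^ 2 := by rw [h1]; ring
  omega

end Cfsg.Agent.H437
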