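import Cfsg.Agent.H437.Cyc
set_option autoImplicit false
namespace Cfsg.Agent.H437
open Finset

theorem IsOrd.power {T : LT} {p f N m k Z W : ℕ} (h : IsOrd T p f N) (hN : N = m ^ k)
    (hW : T.cof (p ^ f) = Z * W) (hZ : 0 < Z) (h1 : Nat.Coprime Z W) (h2 : Nat.Coprime Z ((p ^ f) ^ T.expo))
    (h3 : Nat.Coprime Z (T.dd (p ^ f))) : ∃ z, Z = z ^ k := by
  have h4 := h.eq
  rw [hW] at h4
  refine power_part (d := T.dd (p ^ f)) (W := (p ^ f) ^ T.expo * W) hZ hN ?_ (Nat.Coprime.mul_right h2 h1) h3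
  rw [h4]; ring

/-- consecutive or nearly consecutive powers -/
theorem not_near {x a b l : ℕ} (hl : 2 ≤ l) (hx : 1 ≤ x) (h1 : x = a ^ l) (h2 : x + 1 = b ^ l ∨ x + 2 = b ^ l) : False := by
  have ha : 1 ≤ a := by
    rcases Nat.eq_zero_or_pos a with h | h
    · rw [h, zero_pow (by omega)] at h1; omega
    · exact h
  have := pow_gap (b := b) hl ha (by omega)
  omega

theorem no_A2 {p f N m l : ℕ} (h : IsOrd (.A 2) p f N) (hl : l.Prime) (hN : N = m ^ l) : False := by
  have hl2 := hl.two_le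
  obtain ⟨g, hg, -, hq⟩ := h.exists_root hl hN (by
    show ¬ l ∣ 2 * (2 - 1) / 2
    intro h; have := Nat.le_of_dvd (by norm_num) h; omega)
  have hq4 : 4 ≤ p ^ f := h.valid.2 rfl
  have heq := h.eq
  have hcs := h.cop_cof
  have hcd := h.cop_dd
  generalize p ^ f = q at *
  have e1 : (LT.A 2).cof q = q ^ 2 - 1 := by simp [LT.cof]
  have e2 : (LT.A 2).expo = 1 := rfl
  have e3 : (LT.A 2).dd q = Nat.gcd 2 (q - 1) := rfl
  rw [e1, e2, e3, pow_one] at heq
  rw [e1] at hcs
  rcases Nat.even_or_odd' q with ⟨u, hu | hu⟩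
  · have e4 : Nat.gcd 2 (q - 1) = 1 := by
      rw [← Nat.coprime_iff_gcd_eq_one, Nat.coprime_two_left, Nat.odd_iff]; omega
    rw [e4, one_mul, hN] at heq
    obtain ⟨b, hb⟩ := pow_of_mul' hcs heq.symm
    have h5 : q ^ 2 = (((p ^ g)) ^ 2) ^ l := by rw [hq]; exact pow_right_comm _ _ _
    have h6 : 16 ≤ q ^ 2 := by nlinarith
    refine not_near (x := q ^ 2 - 1) hl2 (by omega) hb (.inl ?_) (b := (p ^ g) ^ 2)
    rw [← h5]; omega
  · have e4 : Nat.gcd 2 (q - 1) = 2 := by
      apply Nat.gcd_eq_left; exact ⟨u, by omega⟩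
    have e5 : q ^ 2 - 1 = 2 * (2 * u * (u + 1)) := by
      rw [hu]
      have : (2 * u + 1) ^ 2 = 2 * (2 * u * (u + 1)) + 1 := by ring
      omega
    rw [e4, e5, hN] at heq
    have h6 : q * (2 * u * (u + 1)) = m ^ l := by
      have : 2 * (q * (2 * u * (u + 1))) = 2 * m ^ l := by rw [heq]; ring
      omega
    have h7 : Nat.Coprime q (2 * u * (u + 1)) := by
      rw [e5] at hcs; exact hcs.coprime_mul_left_right
    obtain ⟨b, hb⟩ := pow_of_mul' h7 h6
    rcases Nat.even_or_odd' u with ⟨v, hv | hv⟩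
    · have h8 : Nat.Coprime (2 * u) (u + 1) := by
        apply Nat.Coprime.mul_left
        · rw [Nat.coprime_two_left, Nat.odd_iff]; omega
        · simp
      obtain ⟨c, hc⟩ := pow_of_mul h8 hb
      exact not_near (x := q - 1) hl2 (by omega) (by rw [← hc]; omega) (.inl (by rw [← hq]; omega)) (b := p ^ g)
    · have h8 : Nat.Coprime (2 * (u + 1)) u := by
        apply Nat.Coprime.mul_left
        · rw [Nat.coprime_two_left, Nat.odd_iff]; omega
        · simp
      obtain ⟨c, hc⟩ := pow_of_mul h8 (show 2 * (u + 1) * u = b ^ l by rw [← hb]; ring)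
      exact not_near (x := q) hl2 (by omega) hq (.inl (by rw [← hc]; omega)) (b := c)

theorem pow_of_mul_pow {K x m l : ℕ} (hl : l ≠ 0) (hK : 0 < K) (h : m ^ l = K ^ l * x) : ∃ y, x = y ^ l := by
  have h1 : K ∣ m := (Nat.pow_dvd_pow_iff hl).1 ⟨x, h⟩
  obtain ⟨y, rfl⟩ := h1
  rw [mul_pow] at h
  exact ⟨y, (Nat.eq_of_mul_eq_mul_left (pow_pos hK l) h).symm⟩

theorem cube_plus {a y : ℕ} (ha : 1 ≤ a) (h : a ^ 2 * (a + 2) = y ^ 3) : False := by
  rcases Nat.even_or_odd' a with ⟨c, hc | hc⟩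
  · have h1 : y ^ 3 = 2 ^ 3 * (c ^ 2 * (c + 1)) := by rw [← h, hc]; ring
    obtain ⟨z, hz⟩ := pow_of_mul_pow (by norm_num) (by norm_num) h1
    have h2 : Nat.Coprime (c ^ 2) (c + 1) := Nat.Coprime.pow_left _ (by simp)
    obtain ⟨u, hu⟩ := pow_of_mul h2 hz
    obtain ⟨v, hv⟩ := pow_of_mul' h2 hz
    obtain ⟨w, hw⟩ := root_of_coprime (by norm_num) hu
    exact not_near (x := c) (by norm_num) (by omega) hw (.inl hv)
  · have h2 : Nat.Coprime (a ^ 2) (a + 2) := Nat.Coprime.pow_left _ (by simp; rw [Nat.odd_iff]; omega)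
    obtain ⟨u, hu⟩ := pow_of_mul h2 h
    obtain ⟨v, hv⟩ := pow_of_mul' h2 h
    obtain ⟨w, hw⟩ := root_of_coprime (by norm_num) hu
    exact not_near (x := a) (by norm_num) (by omega) hw (.inr hv)

theorem cube_minus {a y : ℕ} (ha : 1 ≤ a) (h : a * (a + 2) ^ 2 = y ^ 3) : False := by
  rcases Nat.even_or_odd' a with ⟨c, hc | hc⟩
  · have h1 : y ^ 3 = 2 ^ 3 * (c * (c + 1) ^ 2) := by rw [← h, hc]; ring
    obtain ⟨z, hz⟩ := pow_of_mul_pow (by norm_num) (by norm_num) h1
    have h2 : Nat.Coprime c ((c + 1) ^ 2) := Nat.Coprime.pow_right _ (by simp)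
    obtain ⟨u, hu⟩ := pow_of_mul h2 hz
    obtain ⟨v, hv⟩ := pow_of_mul' h2 hz
    obtain ⟨w, hw⟩ := root_of_coprime (by norm_num) hv
    exact not_near (x := c) (by norm_num) (by omega) hu (.inl hw)
  · have h2 : Nat.Coprime a ((a + 2) ^ 2) := Nat.Coprime.pow_right _ (by simp; rw [Nat.odd_iff]; omega)
    obtain ⟨u, hu⟩ := pow_of_mul h2 h
    obtain ⟨v, hv⟩ := pow_of_mul' h2 h
    obtain ⟨w, hw⟩ := root_of_coprime (by norm_num) hv
    exact not_near (x := a) (by norm_num) (by omega) hu (.inr hw)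

theorem cof_A3 {q Z c : ℕ} (hq : 1 ≤ q) (h : q ^ 2 + q + 1 = c * Z) : (LT.A 3).cof q = Z * (c * (q - 1) * (q ^ 2 - 1)) := by
  have e1 : (LT.A 3).cof q = (q ^ 2 - 1) * (q ^ 3 - 1) := by
    simp [LT.cof, Finset.prod_range_succ]
  obtain ⟨a, rfl⟩ : ∃ a, q = a + 1 := ⟨q - 1, by omega⟩
  have e2 : (a + 1) ^ 3 - 1 = a * ((a + 1) ^ 2 + (a + 1) + 1) := by
    have : (a + 1) ^ 3 = a * ((a + 1) ^ 2 + (a + 1) + 1) + 1 := by ring
    omega
  rw [e1, e2, h]
  simp only [Nat.add_sub_cancel]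
  ring

theorem cof_U3 {q Z c : ℕ} (hq : 1 ≤ q) (h : q ^ 2 - q + 1 = c * Z) : (LT.U 3).cof q = Z * (c * (q + 1) * (q ^ 2 - 1)) := by
  have e1 : (LT.U 3).cof q = (q ^ 2 - 1) * (q ^ 3 + 1) := by
    simp [LT.cof, Finset.prod_range_succ]
  obtain ⟨a, rfl⟩ : ∃ a, q = a + 1 := ⟨q - 1, by omega⟩
  have e2 : (a + 1) ^ 3 + 1 = (a + 2) * ((a + 1) ^ 2 - (a + 1) + 1) := by
    have : (a + 1) ^ 2 - (a + 1) = a ^ 2 + a := by
      have : (a + 1) ^ 2 = a ^ 2 + a + (a + 1) := by ring
      omega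
    rw [this]; ring
  rw [e1, e2, h]
  ring

theorem no_A3 {p f N m l : ℕ} (h : IsOrd (.A 3) p f N) (hl : l.Prime) (hN : N = m ^ l) : False := by
  have hl2 := hl.two_le
  have hq2 := h.two_le
  obtain ⟨Z, c, hZ, hc3, hc1, hZ3, H⟩ := plus_HH hq2
  have hcof := cof_A3 (by omega) hZ
  have hroot : l ≠ 3 → ∃ a, p ^ f = a ^ l := by
    intro hl3
    obtain ⟨g, -, -, hg⟩ := h.exists_root hl hN (by
      show ¬ l ∣ 3 * (3 - 1) / 2
      norm_num
      rw [Nat.prime_dvd_prime_iff_eq hl Nat.prime_three]; exact hl3)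
    exact ⟨_, hg⟩
  have hdd : (LT.A 3).dd (p ^ f) = Nat.gcd 3 (p ^ f - 1) := rfl
  have hccop : Nat.Coprime Z c := by
    by_cases hm : p ^ f % 3 = 1
    · rw [hc3 hm]; exact H.cop_small (by norm_num) le_rfl
    · rw [hc1 hm]; exact Nat.coprime_one_right _
  obtain ⟨z, hz⟩ := h.power hN hcof H.pos
    (Nat.Coprime.mul_right (Nat.Coprime.mul_right hccop (H.cop_sub_one le_rfl)) (H.cop_sub (by norm_num))) (H.cop_q _)
    (Nat.Coprime.coprime_dvd_right (Nat.gcd_dvd_left _ _) (H.cop_small (by norm_num) le_rfl))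
  have heq := h.eq
  rw [hcof, hdd, show (LT.A 3).expo = 3 from rfl] at heq
  generalize p ^ f = q at *
  by_cases hm : q % 3 = 1
  · have hc := hc3 hm
    subst hc
    have hg : Nat.gcd 3 (q - 1) = 3 := Nat.gcd_eq_left (by omega)
    rw [hg] at heq
    by_cases hll : l = 2
    · subst hll
      obtain ⟨a, ha⟩ := hroot (by norm_num)
      have h3 : N = q ^ 3 * (Z * ((q - 1) * (q ^ 2 - 1))) := by
        have : 3 * N = 3 * (q ^ 3 * (Z * ((q - 1) * (q ^ 2 - 1)))) := by rw [heq]; ring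
        omega
      obtain ⟨b, hb⟩ : ∃ b, q = b + 1 := ⟨q - 1, by omega⟩
      have e1 : q ^ 2 - 1 = b * (b + 2) := by
        rw [hb]
        have : (b + 1) ^ 2 = b * (b + 2) + 1 := by ring
        omega
      have e2 : q - 1 = b := by omega
      have h4 : m ^ 2 = (a ^ 3 * z * b) ^ 2 * (b + 2) := by
        rw [← hN, h3, e1, e2, hz]
        have : q ^ 3 = (a ^ 3) ^ 2 := by rw [ha]; exact pow_right_comm _ _ _
        rw [this]; ring
      have ha0 : 0 < a := by
        rcases Nat.eq_zero_or_pos a with h0 | h0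
        · rw [h0] at ha; omega
        · exact h0
      have hz0 : 0 < z := by
        rcases Nat.eq_zero_or_pos z with h0 | h0
        · rw [h0] at hz; have := H.pos; omega
        · exact h0
      have hb0 : 0 < b := by omega
      obtain ⟨y, hy⟩ := pow_of_mul_pow (by norm_num) (by positivity) h4
      exact not_near (x := q) le_rfl (by omega) ha (.inl (by rw [← hy]; omega)) (b := y)
    · have : (q : ℤ) ^ 2 + q + 1 = 3 * (z : ℤ) ^ l := by
        have : q ^ 2 + q + 1 = 3 * z ^ l := by rw [hZ, hz]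
        exact_mod_cast this
      rcases nagell hl hll this with h3 | h3 <;> omega
  · have hc := hc1 hm
    subst hc
    rw [one_mul] at hZ
    rw [hz] at hZ
    by_cases hl3 : l = 3
    · subst hl3
      have hg : Nat.gcd 3 (q - 1) = 1 := by
        rw [← Nat.coprime_iff_gcd_eq_one, Nat.Prime.coprime_iff_not_dvd Nat.prime_three]
        clear * - hm hq2
        omega
      rw [hg, one_mul, one_mul, hN, hz] at heq
      obtain ⟨b, hb⟩ : ∃ b, q = b + 1 := ⟨q - 1, by omega⟩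
      have e1 : q ^ 2 - 1 = b * (b + 2) := by
        rw [hb]
        have : (b + 1) ^ 2 = b * (b + 2) + 1 := by ring
        omega
      have e2 : q - 1 = b := by omega
      have hz0 : 0 < z := by
        rcases Nat.eq_zero_or_pos z with h0 | h0
        · rw [h0] at hz; have := H.pos; omega
        · exact h0
      have h4 : m ^ 3 = (q * z) ^ 3 * (b ^ 2 * (b + 2)) := by
        rw [heq, e1, e2]; ring
      obtain ⟨y, hy⟩ := pow_of_mul_pow (by norm_num) (by positivity) h4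
      exact cube_plus (by omega) hy
    · obtain ⟨a, ha⟩ := hroot hl3
      exact size_plus hl2 (by omega) ha hZ

theorem no_U3 {p f N m l : ℕ} (h : IsOrd (.U 3) p f N) (hl : l.Prime) (hN : N = m ^ l) : False := by
  have hl2 := hl.two_le
  have hq2 := h.two_le
  have hq3 : p ^ f ≠ 2 := fun e => h.valid.2 ⟨rfl, e⟩
  obtain ⟨Z, c, hZ, hc3, hc1, hZ3, H⟩ := minus_HH hq2
  have hcof := cof_U3 (by omega) hZ
  have hroot : l ≠ 3 → ∃ a, p ^ f = a ^ l := by
    intro hl3
    obtain ⟨g, -, -, hg⟩ := h.exists_root hl hN (by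
      show ¬ l ∣ 3 * (3 - 1) / 2
      norm_num
      rw [Nat.prime_dvd_prime_iff_eq hl Nat.prime_three]; exact hl3)
    exact ⟨_, hg⟩
  have hdd : (LT.U 3).dd (p ^ f) = Nat.gcd 3 (p ^ f + 1) := rfl
  have hccop : Nat.Coprime Z c := by
    by_cases hm : p ^ f % 3 = 2
    · rw [hc3 hm]; exact H.cop_small (by norm_num) (by norm_num)
    · rw [hc1 hm]; exact Nat.coprime_one_right _
  obtain ⟨z, hz⟩ := h.power hN hcof H.pos
    (Nat.Coprime.mul_right (Nat.Coprime.mul_right hccop (H.cop_add_one (by norm_num))) (H.cop_sub (by norm_num))) (H.cop_q _)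
    (Nat.Coprime.coprime_dvd_right (Nat.gcd_dvd_left _ _) (H.cop_small (by norm_num) (by norm_num)))
  have heq := h.eq
  rw [hcof, hdd, show (LT.U 3).expo = 3 from rfl] at heq
  generalize p ^ f = q at *
  by_cases hm : q % 3 = 2
  · have hc := hc3 hm
    subst hc
    have hg : Nat.gcd 3 (q + 1) = 3 := Nat.gcd_eq_left (by omega)
    rw [hg] at heq
    by_cases hll : l = 2
    · subst hll
      obtain ⟨a, ha⟩ := hroot (by norm_num)
      have := sq_mod_three a
      omega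
    · have : (-(q : ℤ)) ^ 2 + (-(q : ℤ)) + 1 = 3 * (z : ℤ) ^ l := by
        have h5 : q ^ 2 - q + 1 = 3 * z ^ l := by rw [hZ, hz]
        have h6 : q ≤ q ^ 2 := by nlinarith
        have h7 : ((q ^ 2 - q + 1 : ℕ) : ℤ) = ((3 * z ^ l : ℕ) : ℤ) := by rw [h5]
        push_cast [Nat.cast_sub h6] at h7
        linear_combination h7
      rcases nagell hl hll this with h3 | h3 <;> omega
  · have hc := hc1 hm
    subst hc
    rw [one_mul] at hZ
    rw [hz] at hZ
    by_cases hl3 : l = 3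
    · subst hl3
      have hg : Nat.gcd 3 (q + 1) = 1 := by
        rw [← Nat.coprime_iff_gcd_eq_one, Nat.Prime.coprime_iff_not_dvd Nat.prime_three]
        clear * - hm hq2
        omega
      rw [hg, one_mul, one_mul, hN, hz] at heq
      obtain ⟨b, hb⟩ : ∃ b, q = b + 1 := ⟨q - 1, by omega⟩
      have e1 : q ^ 2 - 1 = b * (b + 2) := by
        rw [hb]
        have : (b + 1) ^ 2 = b * (b + 2) + 1 := by ring
        omega
      have e2 : q + 1 = b + 2 := by omega
      have hz0 : 0 < z := by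
        rcases Nat.eq_zero_or_pos z with h0 | h0
        · rw [h0] at hz; have := H.pos; omega
        · exact h0
      have h4 : m ^ 3 = (q * z) ^ 3 * (b * (b + 2) ^ 2) := by
        rw [heq, e1, e2]; ring
      obtain ⟨y, hy⟩ := pow_of_mul_pow (by norm_num) (by positivity) h4
      exact cube_minus (by omega) hy
    · by_cases hll : l = 2
      · subst hll
        exact not_sq_minus hq2 hZ
      · obtain ⟨a, ha⟩ := hroot hl3
        exact size_minus (by omega) (by omega) ha hZ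

end Cfsg.Agent.H437
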