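import Cfsg.Agent.H437.Small2
set_option autoImplicit false
namespace Cfsg.Agent.H437
open Finset

theorem IsOrd.fac_sq {T : LT} {p f N m j : ℕ} (h : IsOrd T p f N) (hN : N = m ^ 2)
    (hj : 2 ≤ j) (hF : Fac T (p ^ f) j 1) : ∃ c z, (p ^ f) ^ 2 ^ (j - 1) + 1 = c * z ^ 2 ∧ ((p ^ f) % 2 = 0 → c = 1) ∧
      ((p ^ f) % 2 = 1 → c = 2) ∧ z ^ 2 % 2 = 1 := by
  obtain ⟨Y, c, hY⟩ := exists_YY h.two_le hj
  obtain ⟨W, h1, h2, h3⟩ := hF Y c hY
  have h4 := h.eq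
  rw [h1, pow_one] at h4
  obtain ⟨z, hz⟩ := power_part hY.pos hN h4 h2 h3
  exact ⟨c, z, by rw [← hz]; exact hY.eq, hY.even, hY.odd, by rw [← hz]; exact hY.Yodd⟩

theorem even_two {p f : ℕ} (hp : p.Prime) (h : p ^ f % 2 = 0) : p = 2 :=
  ((Nat.prime_dvd_prime_iff_eq Nat.prime_two hp).1 (Nat.prime_two.dvd_of_dvd_pow (Nat.dvd_of_mod_eq_zero h))).symm

theorem IsOrd.odd_q {T : LT} {p f N m j : ℕ} (h : IsOrd T p f N) (hN : N = m ^ 2)
    (hj : 2 ≤ j) (hF : Fac T (p ^ f) j 1) : (p ^ f) % 2 = 1 := by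
  rcases Nat.mod_two_eq_zero_or_one (p ^ f) with h' | h'
  · exact (h.fac_two hN hj hF (.inl (even_two h.prime h'))).elim
  · exact h'

theorem six_sq {a x : ℕ} (h : 6 * a = x ^ 2) : ∃ t, a = 6 * t ^ 2 := by
  have h2 : 2 ∣ x := Nat.prime_two.dvd_of_dvd_pow (⟨3 * a, by rw [← h]; ring⟩ : 2 ∣ x ^ 2)
  have h3 : 3 ∣ x := Nat.prime_three.dvd_of_dvd_pow (⟨2 * a, by rw [← h]; ring⟩ : 3 ∣ x ^ 2)
  obtain ⟨t, rfl⟩ : 6 ∣ x := by
    have := Nat.Coprime.mul_dvd_of_dvd_of_dvd (by norm_num : Nat.Coprime 2 3) h2 h3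
    simpa using this
  refine ⟨t, ?_⟩
  have : (6 * t) ^ 2 = 6 * (6 * t ^ 2) := by ring
  omega

theorem no_A4_sq {p f N m : ℕ} (h : IsOrd (.A 4) p f N) (hN : N = m ^ 2) : False := by
  have hq2 := h.two_le
  have hF : Fac (.A 4) (p ^ f) 2 1 := fac_A (n := 4) le_rfl
  have hodd := h.odd_q hN le_rfl hF
  obtain ⟨c, z, hz, -, hc, -⟩ := h.fac_sq hN le_rfl hF
  have hc := hc hodd
  subst hc
  obtain ⟨Z, c, hZ, hc3, hc1, hZ3, H⟩ := plus_HH hq2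
  have heq := h.eq
  have e1 : (LT.A 4).cof (p ^ f) = ((p ^ f) ^ 2 - 1) * ((p ^ f) ^ 3 - 1) * ((p ^ f) ^ 4 - 1) := by
    simp [LT.cof, Finset.prod_range_succ]
  rw [e1, show (LT.A 4).expo = 6 from rfl, show (LT.A 4).dd (p ^ f) = Nat.gcd 4 (p ^ f - 1) from rfl, hN] at heq
  generalize p ^ f = q at *
  rw [show 2 ^ (2 - 1) = 2 from rfl] at hz
  rw [four_sub, hz] at heq
  have hK : 0 < q ^ 3 * (q ^ 2 - 1) * z := by
    have h1 : 4 ≤ q ^ 2 := by nlinarith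
    have h2 : 0 < q ^ 2 - 1 := by omega
    have h3 : 0 < z := by
      rcases Nat.eq_zero_or_pos z with h0 | h0
      · rw [h0] at hz; omega
      · exact h0
    positivity
  have h4 : q % 4 = 1 ∨ q % 4 = 3 := by omega
  rcases h4 with h4 | h4
  · have hg : Nat.gcd 4 (q - 1) = 4 := Nat.gcd_eq_left (by omega)
    rw [hg] at heq
    have h5 : (2 * m) ^ 2 = (q ^ 3 * (q ^ 2 - 1) * z) ^ 2 * (2 * (q ^ 3 - 1)) := by
      rw [mul_pow, show 2 ^ 2 = 4 from rfl, heq]; ring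
    obtain ⟨y, hy⟩ := pow_of_mul_pow (by norm_num) hK h5
    rw [cube_sub, hZ] at hy
    have h6 : Z * (2 * c * (q - 1)) = y ^ 2 := by rw [← hy]; ring
    have hccop : Nat.Coprime Z c := by
      by_cases hm : q % 3 = 1
      · rw [hc3 hm]; exact H.cop_small (by norm_num) le_rfl
      · rw [hc1 hm]; exact Nat.coprime_one_right _
    have h7 : Nat.Coprime Z (2 * c * (q - 1)) :=
      Nat.Coprime.mul_right (Nat.Coprime.mul_right H.cop_two hccop) (H.cop_sub_one le_rfl)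
    obtain ⟨u, hu⟩ := pow_of_mul h7 h6
    obtain ⟨v, hv⟩ := pow_of_mul' h7 h6
    by_cases hm : q % 3 = 1
    · rw [hc3 hm] at hv
      obtain ⟨t, ht⟩ := six_sq hv
      have h8 : q = 6 * t ^ 2 + 1 := by omega
      have h9 : t % 2 = 0 := by
        rcases Nat.even_or_odd' t with ⟨k, hk | hk⟩
        · omega
        · exfalso
          rw [hk] at h8
          ring_nf at h8
          omega
      rw [h8] at hz
      have := special_plus h9 hz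
      rw [this] at h8
      omega
    · rw [hc1 hm, one_mul, hu] at hZ
      exact not_sq_plus (by omega) hZ
  · have hg : Nat.gcd 4 (q - 1) = 2 := by
      obtain ⟨k, hk⟩ : ∃ k, q = 4 * k + 3 := ⟨q / 4, by omega⟩
      rw [hk, show 4 * k + 3 - 1 = 2 * (2 * k + 1) by omega, show 4 = 2 * 2 from rfl, Nat.gcd_mul_left]
      have : Nat.gcd 2 (2 * k + 1) = 1 := by
        rw [← Nat.coprime_iff_gcd_eq_one, Nat.coprime_two_left, Nat.odd_iff]; omega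
      rw [this]
    rw [hg] at heq
    have h5 : m ^ 2 = (q ^ 3 * (q ^ 2 - 1) * z) ^ 2 * (q ^ 3 - 1) := by
      have : 2 * m ^ 2 = 2 * ((q ^ 3 * (q ^ 2 - 1) * z) ^ 2 * (q ^ 3 - 1)) := by rw [heq]; ring
      omega
    obtain ⟨y, hy⟩ := pow_of_mul_pow (by norm_num) hK h5
    have h6 : (q ^ 3 - 1) % 4 = 2 := by
      obtain ⟨k, hk⟩ : ∃ k, q = 4 * k + 3 := ⟨q / 4, by omega⟩
      have : q ^ 3 = 4 * (16 * k ^ 3 + 36 * k ^ 2 + 27 * k + 6) + 3 := by rw [hk]; ring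
      omega
    have h7 : y ^ 2 % 4 = 0 ∨ y ^ 2 % 4 = 1 := by
      rcases Nat.even_or_odd' y with ⟨k, rfl | rfl⟩
      · left; ring_nf; omega
      · right; ring_nf; omega
    omega

theorem no_U4_sq {p f N m : ℕ} (h : IsOrd (.U 4) p f N) (hN : N = m ^ 2) : False := by
  have hq2 := h.two_le
  have hF : Fac (.U 4) (p ^ f) 2 1 := fac_U (n := 4) le_rfl
  have hodd := h.odd_q hN le_rfl hF
  obtain ⟨c, z, hz, -, hc, -⟩ := h.fac_sq hN le_rfl hF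
  have hc := hc hodd
  subst hc
  obtain ⟨Z, c, hZ, hc3, hc1, hZ3, H⟩ := minus_HH hq2
  have heq := h.eq
  have e1 : (LT.U 4).cof (p ^ f) = ((p ^ f) ^ 2 - 1) * ((p ^ f) ^ 3 + 1) * ((p ^ f) ^ 4 - 1) := by
    have : ¬ Even 1 := by decide
    simp [LT.cof, Finset.prod_range_succ]
  rw [e1, show (LT.U 4).expo = 6 from rfl, show (LT.U 4).dd (p ^ f) = Nat.gcd 4 (p ^ f + 1) from rfl, hN] at heq
  generalize p ^ f = q at *
  rw [show 2 ^ (2 - 1) = 2 from rfl] at hz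
  rw [four_sub, hz] at heq
  have hK : 0 < q ^ 3 * (q ^ 2 - 1) * z := by
    have h1 : 4 ≤ q ^ 2 := by nlinarith
    have h2 : 0 < q ^ 2 - 1 := by omega
    have h3 : 0 < z := by
      rcases Nat.eq_zero_or_pos z with h0 | h0
      · rw [h0] at hz; omega
      · exact h0
    positivity
  have h4 : q % 4 = 1 ∨ q % 4 = 3 := by omega
  rcases h4 with h4 | h4
  · have hg : Nat.gcd 4 (q + 1) = 2 := by
      obtain ⟨k, hk⟩ : ∃ k, q = 4 * k + 1 := ⟨q / 4, by omega⟩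
      rw [hk, show 4 * k + 1 + 1 = 2 * (2 * k + 1) by omega, show 4 = 2 * 2 from rfl, Nat.gcd_mul_left]
      have : Nat.gcd 2 (2 * k + 1) = 1 := by
        rw [← Nat.coprime_iff_gcd_eq_one, Nat.coprime_two_left, Nat.odd_iff]; omega
      rw [this]
    rw [hg] at heq
    have h5 : m ^ 2 = (q ^ 3 * (q ^ 2 - 1) * z) ^ 2 * (q ^ 3 + 1) := by
      have : 2 * m ^ 2 = 2 * ((q ^ 3 * (q ^ 2 - 1) * z) ^ 2 * (q ^ 3 + 1)) := by rw [heq]; ring
      omega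
    obtain ⟨y, hy⟩ := pow_of_mul_pow (by norm_num) hK h5
    have h6 : (q ^ 3 + 1) % 4 = 2 := by
      obtain ⟨k, hk⟩ : ∃ k, q = 4 * k + 1 := ⟨q / 4, by omega⟩
      have : q ^ 3 = 4 * (16 * k ^ 3 + 12 * k ^ 2 + 3 * k) + 1 := by rw [hk]; ring
      omega
    have h7 : y ^ 2 % 4 = 0 ∨ y ^ 2 % 4 = 1 := by
      rcases Nat.even_or_odd' y with ⟨k, rfl | rfl⟩
      · left; ring_nf; omega
      · right; ring_nf; omega
    omega
  · have hg : Nat.gcd 4 (q + 1) = 4 := Nat.gcd_eq_left (by omega)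
    rw [hg] at heq
    have h5 : (2 * m) ^ 2 = (q ^ 3 * (q ^ 2 - 1) * z) ^ 2 * (2 * (q ^ 3 + 1)) := by
      rw [mul_pow, show 2 ^ 2 = 4 from rfl, heq]; ring
    obtain ⟨y, hy⟩ := pow_of_mul_pow (by norm_num) hK h5
    rw [cube_add, hZ] at hy
    have h6 : Z * (2 * c * (q + 1)) = y ^ 2 := by rw [← hy]; ring
    have hccop : Nat.Coprime Z c := by
      by_cases hm : q % 3 = 2
      · rw [hc3 hm]; exact H.cop_small (by norm_num) (by norm_num)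
      · rw [hc1 hm]; exact Nat.coprime_one_right _
    have h7 : Nat.Coprime Z (2 * c * (q + 1)) :=
      Nat.Coprime.mul_right (Nat.Coprime.mul_right H.cop_two hccop) (H.cop_add_one (by norm_num))
    obtain ⟨u, hu⟩ := pow_of_mul h7 h6
    obtain ⟨v, hv⟩ := pow_of_mul' h7 h6
    by_cases hm : q % 3 = 2
    · rw [hc3 hm] at hv
      obtain ⟨t, ht⟩ := six_sq hv
      have h8 : q = 6 * t ^ 2 - 1 := by omega
      have h9 : t % 2 = 0 := by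
        rcases Nat.even_or_odd' t with ⟨k, hk | hk⟩
        · omega
        · exfalso
          rw [hk] at ht
          ring_nf at ht
          omega
      have h10 : 1 ≤ t := by
        rcases Nat.eq_zero_or_pos t with h0 | h0
        · rw [h0] at ht; omega
        · exact h0
      rw [h8] at hz
      exact special_minus h9 h10 hz
    · rw [hc1 hm, one_mul, hu] at hZ
      exact not_sq_minus (by omega) hZ

theorem odd_five {q : ℕ} (h : q % 2 = 1) : ∃ E, q ^ 5 - 1 = (q - 1) * E ∧ E % 2 = 1 := by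
  obtain ⟨k, hk⟩ : ∃ k, q = 2 * k + 1 := ⟨q / 2, by omega⟩
  refine ⟨q ^ 4 + q ^ 3 + q ^ 2 + q + 1, ?_, ?_⟩
  · have : q ^ 5 = (2 * k) * (q ^ 4 + q ^ 3 + q ^ 2 + q + 1) + 1 := by rw [hk]; ring
    rw [this, show q - 1 = 2 * k by omega]; simp
  · have : q ^ 4 + q ^ 3 + q ^ 2 + q + 1 = 2 * (8 * k ^ 4 + 20 * k ^ 3 + 20 * k ^ 2 + 10 * k + 2) + 1 := by rw [hk]; ring
    omega

theorem odd_five' {q : ℕ} (h : q % 2 = 1) : ∃ E, q ^ 5 + 1 = (q + 1) * E ∧ E % 2 = 1 := by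
  obtain ⟨k, hk⟩ : ∃ k, q = 2 * k + 1 := ⟨q / 2, by omega⟩
  refine ⟨16 * k ^ 4 + 24 * k ^ 3 + 16 * k ^ 2 + 4 * k + 1, ?_, by omega⟩
  rw [hk]; ring

theorem no_A5_sq {p f N m : ℕ} (h : IsOrd (.A 5) p f N) (hN : N = m ^ 2) : False := by
  have hq2 := h.two_le
  have hF : Fac (.A 5) (p ^ f) 2 1 := fac_A (n := 5) (by norm_num)
  have hodd := h.odd_q hN le_rfl hF
  have heq := h.eq
  have e1 : (LT.A 5).cof (p ^ f) = ((p ^ f) ^ 2 - 1) * ((p ^ f) ^ 3 - 1) * ((p ^ f) ^ 4 - 1) * ((p ^ f) ^ 5 - 1) := by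
    simp [LT.cof, Finset.prod_range_succ]
  rw [e1, show (LT.A 5).expo = 10 from rfl, show (LT.A 5).dd (p ^ f) = Nat.gcd 5 (p ^ f - 1) from rfl, hN] at heq
  generalize p ^ f = q at *
  obtain ⟨E, hE, hE2⟩ := odd_five hodd
  obtain ⟨k, hk⟩ : ∃ k, q = 2 * k + 1 := ⟨q / 2, by omega⟩
  have hg : Nat.gcd 5 (q - 1) % 2 = 1 := by
    rcases (Nat.dvd_prime Nat.prime_five).1 (Nat.gcd_dvd_left 5 (q - 1)) with h | h <;> rw [h]
  have hB : (q ^ 2 + q + 1) % 2 = 1 := by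
    have : q ^ 2 + q + 1 = 2 * (2 * k ^ 2 + 3 * k + 1) + 1 := by rw [hk]; ring
    omega
  obtain ⟨Y, hY, hY2⟩ : ∃ Y, q ^ 2 + 1 = 2 * Y ∧ Y % 2 = 1 := by
    refine ⟨2 * k ^ 2 + 2 * k + 1, by rw [hk]; ring, by omega⟩
  have h1 : 4 ≤ q ^ 2 := by nlinarith
  have h2 : 0 < q ^ 2 - 1 := by omega
  have h3 : 0 < q - 1 := by omega
  refine v2par (m := m) (d := Nat.gcd 5 (q - 1)) (K := q ^ 5 * (q ^ 2 - 1) * (q - 1)) (u := (q ^ 2 + q + 1) * Y * E) hg ?_ ?_ ?_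
  · rw [Nat.mul_mod, Nat.mul_mod (q ^ 2 + q + 1), hB, hY2, hE2]
  · positivity
  · rw [heq, cube_sub, four_sub, hY, hE]; ring

theorem no_U5_sq {p f N m : ℕ} (h : IsOrd (.U 5) p f N) (hN : N = m ^ 2) : False := by
  have hq2 := h.two_le
  have hF : Fac (.U 5) (p ^ f) 2 1 := fac_U (n := 5) (by norm_num)
  have hodd := h.odd_q hN le_rfl hF
  have heq := h.eq
  have e1 : (LT.U 5).cof (p ^ f) = ((p ^ f) ^ 2 - 1) * ((p ^ f) ^ 3 + 1) * ((p ^ f) ^ 4 - 1) * ((p ^ f) ^ 5 + 1) := by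
    have : ¬ Even 1 := by decide
    have h3 : ¬ Even 3 := by decide
    simp [LT.cof, Finset.prod_range_succ, h3]
  rw [e1, show (LT.U 5).expo = 10 from rfl, show (LT.U 5).dd (p ^ f) = Nat.gcd 5 (p ^ f + 1) from rfl, hN] at heq
  generalize p ^ f = q at *
  obtain ⟨E, hE, hE2⟩ := odd_five' hodd
  obtain ⟨k, hk⟩ : ∃ k, q = 2 * k + 1 := ⟨q / 2, by omega⟩
  have hg : Nat.gcd 5 (q + 1) % 2 = 1 := by
    rcases (Nat.dvd_prime Nat.prime_five).1 (Nat.gcd_dvd_left 5 (q + 1)) with h | h <;> rw [h]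
  have h0 : q ≤ q ^ 2 := by nlinarith
  have hB : (q ^ 2 - q + 1) % 2 = 1 := by
    have : q ^ 2 = 2 * (2 * k ^ 2 + k) + q := by rw [hk]; ring
    omega
  obtain ⟨Y, hY, hY2⟩ : ∃ Y, q ^ 2 + 1 = 2 * Y ∧ Y % 2 = 1 := by
    refine ⟨2 * k ^ 2 + 2 * k + 1, by rw [hk]; ring, by omega⟩
  have h1 : 4 ≤ q ^ 2 := by nlinarith
  have h2 : 0 < q ^ 2 - 1 := by omega
  refine v2par (m := m) (d := Nat.gcd 5 (q + 1)) (K := q ^ 5 * (q ^ 2 - 1) * (q + 1)) (u := (q ^ 2 - q + 1) * Y * E) hg ?_ ?_ ?_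
  · rw [Nat.mul_mod, Nat.mul_mod (q ^ 2 - q + 1), hB, hY2, hE2]
  · positivity
  · rw [heq, cube_add, four_sub, hY, hE]; ring

theorem no_P4_sq {p f N m : ℕ} (h : IsOrd (.P 4) p f N) (hN : N = m ^ 2) : False := by
  have hq2 := h.two_le
  have heq := h.eq
  have e1 : (LT.P 4).cof (p ^ f) = ((p ^ f) ^ 4 - 1) * (((p ^ f) ^ 2 - 1) * ((p ^ f) ^ 4 - 1) * ((p ^ f) ^ 6 - 1)) := by
    simp [LT.cof, Finset.prod_range_succ]
  rw [e1, show (LT.P 4).expo = 12 from rfl, show (LT.P 4).dd (p ^ f) = Nat.gcd 4 ((p ^ f) ^ 4 - 1) from rfl, hN] at heq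
  generalize p ^ f = q at *
  have hg : ∃ e, Nat.gcd 4 (q ^ 4 - 1) = e ^ 2 := by
    rcases Nat.even_or_odd' q with ⟨k, hk | hk⟩
    · refine ⟨1, ?_⟩
      have h5 : q ^ 4 = 2 * (8 * k ^ 4) := by rw [hk]; ring
      have h6 : 1 ≤ q ^ 4 := Nat.one_le_pow _ _ (by omega)
      have : Nat.Coprime 2 (q ^ 4 - 1) := by
        rw [Nat.coprime_two_left, Nat.odd_iff]; omega
      have := this.mul_left this
      simpa using this
    · refine ⟨2, ?_⟩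
      apply Nat.gcd_eq_left
      have h5 : q ^ 4 = 4 * (4 * k ^ 4 + 8 * k ^ 3 + 6 * k ^ 2 + 2 * k) + 1 := by rw [hk]; ring
      omega
  obtain ⟨e, he⟩ := hg
  rw [he, six_sub'] at heq
  have h1 : 4 ≤ q ^ 2 := by nlinarith
  have h2 : 0 < q ^ 2 - 1 := by omega
  have h3 : 0 < q ^ 4 - 1 := by
    have : q ^ 4 = q ^ 2 * q ^ 2 := by ring
    have : 4 * 4 ≤ q ^ 2 * q ^ 2 := Nat.mul_le_mul h1 h1
    omega
  have h4 : (e * m) ^ 2 = (q ^ 6 * (q ^ 4 - 1) * (q ^ 2 - 1)) ^ 2 * ((q ^ 2) ^ 2 + q ^ 2 + 1) := by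
    rw [mul_pow, heq]; ring
  obtain ⟨y, hy⟩ := pow_of_mul_pow (by norm_num) (by positivity) h4
  exact not_sq_plus (by omega) hy

theorem fac_M4 {q : ℕ} : Fac (.M 4) q 3 1 := by
  intro Y c h
  have heq := h.eq
  rw [show 2 ^ (3 - 1) = 4 from rfl] at heq
  refine ⟨q ^ 12 * (c * ((q ^ 2 - 1) * (q ^ 4 - 1) * (q ^ 6 - 1))), ?_, ?_, ?_⟩
  · have : (LT.M 4).cof q = (q ^ 4 + 1) * ((q ^ 2 - 1) * (q ^ 4 - 1) * (q ^ 6 - 1)) := by
      simp [LT.cof, Finset.prod_range_succ]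
    rw [this, heq, show (LT.M 4).expo = 12 from rfl]; ring
  · exact Nat.Coprime.mul_right (h.cop_q _) <| Nat.Coprime.mul_right h.cop_c (Nat.Coprime.mul_right (Nat.Coprime.mul_right (h.cop_sub (by norm_num))
      (h.cop_sub (by norm_num))) (h.cop_sub (by norm_num)))
  · exact Nat.Coprime.coprime_dvd_right (Nat.gcd_dvd_left _ _) h.cop_four

theorem no_E8_sq {p f N m : ℕ} (h : IsOrd .E8 p f N) (hN : N = m ^ 2) : False := by
  refine h.zz (i := 2) hN (by norm_num) ?_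
  intro Z hZ H
  rw [zz_two] at hZ
  generalize p ^ f = q at *
  have h24 : q ^ 24 - 1 = Z * ((q ^ 12 - 1) * (q ^ 4 + 1)) := by
    have e1 : q ^ 24 - 1 = (q ^ 12 - 1) * (q ^ 12 + 1) := by
      rw [← sq_sub, ← pow_mul]
    have e2 : q ^ 12 + 1 = (q ^ 4 + 1) * (q ^ 8 - q ^ 4 + 1) := by
      have := cube_add (q ^ 4)
      rw [← pow_mul, ← pow_mul] at this
      exact this
    rw [e1, e2, ← hZ]; ring
  have c8 := H.cop_sub (d := 8) (by norm_num)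
  have c4 : Nat.Coprime Z (q ^ 4 + 1) := by
    have e : q ^ 8 - 1 = (q ^ 4 - 1) * (q ^ 4 + 1) := by rw [← sq_sub, ← pow_mul]
    rw [e] at c8
    exact c8.coprime_mul_left_right
  refine ⟨(q ^ 2 - 1) * (q ^ 8 - 1) * (q ^ 12 - 1) * (q ^ 14 - 1) * (q ^ 18 - 1) * (q ^ 20 - 1) * ((q ^ 12 - 1) * (q ^ 4 + 1)) *
      (q ^ 30 - 1), ?_, ?_, Nat.coprime_one_right _⟩
  · show (q ^ 2 - 1) * (q ^ 8 - 1) * (q ^ 12 - 1) * (q ^ 14 - 1) * (q ^ 18 - 1) * (q ^ 20 - 1) * (q ^ 24 - 1) *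
      (q ^ 30 - 1) = _
    rw [h24]; ring
  · refine Nat.Coprime.mul_right (Nat.Coprime.mul_right (Nat.Coprime.mul_right (Nat.Coprime.mul_right
      (Nat.Coprime.mul_right (Nat.Coprime.mul_right (Nat.Coprime.mul_right ?_ c8) ?_) ?_) ?_) ?_)
      (Nat.Coprime.mul_right ?_ c4)) ?_
    all_goals exact H.cop_sub (by norm_num)

theorem no_TF4_sq {p f N m : ℕ} (h : IsOrd .TF4 p f N) (hN : N = m ^ 2) : False := by
  refine h.zz (i := 1) hN (by norm_num) ?_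
  intro Z hZ H
  rw [zz_one] at hZ
  generalize p ^ f = q at *
  have c2 : Nat.Coprime Z (q ^ 2 + 1) := by
    have c4 := H.cop_sub (d := 4) (by norm_num)
    rw [four_sub] at c4
    exact c4.coprime_mul_left_right
  refine ⟨(q - 1) * (q ^ 3 + 1) * (q ^ 4 - 1) * (q ^ 2 + 1), ?_, ?_, Nat.coprime_one_right _⟩
  · show (q - 1) * (q ^ 3 + 1) * (q ^ 4 - 1) * (q ^ 6 + 1) = _
    rw [six_add, ← hZ]; ring
  · exact Nat.Coprime.mul_right (Nat.Coprime.mul_right (Nat.Coprime.mul_right (H.cop_sub_one (by norm_num))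
      (H.cop_add (by norm_num))) (H.cop_sub (by norm_num))) c2

theorem no_P_two_pow_sq {p f N m n s : ℕ} (h : IsOrd (.P n) p f N) (hN : N = m ^ 2) (hs : 3 ≤ s) (hn : n = 2 ^ s) : False := by
  subst hn
  obtain ⟨i, rfl⟩ : ∃ i, s = i + 2 := ⟨s - 2, by omega⟩
  refine h.zz (i := i) hN (by omega) ?_
  intro Z hZ H
  have hdd : (LT.P (2 ^ (i + 2))).dd (p ^ f) = Nat.gcd 4 ((p ^ f) ^ (2 ^ (i + 2)) - 1) := rfl
  have hcof : (LT.P (2 ^ (i + 2))).cof (p ^ f) = ((p ^ f) ^ (2 ^ (i + 2)) - 1) *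
    ∏ k ∈ range (2 ^ (i + 2) - 1), ((p ^ f) ^ (2 * (k + 1)) - 1) := rfl
  generalize p ^ f = q at *
  have hi2 : 2 ≤ 2 ^ i := by
    calc 2 = 2 ^ 1 := rfl
      _ ≤ 2 ^ i := Nat.pow_le_pow_right (by norm_num) (by omega)
  have h3 : ¬ 3 * 2 ^ (i + 1) ∣ 2 ^ (i + 2) := by
    intro hd
    have h4 : 3 ∣ 2 ^ (i + 2) := (Dvd.intro _ rfl).trans hd
    have := Nat.prime_three.dvd_of_dvd_pow h4
    omega
  have e2 : 2 ^ (i + 2) = 4 * 2 ^ i := by ring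
  have e1 : 2 ^ (i + 1) = 2 * 2 ^ i := by ring
  have hsplit : ∃ W, ∏ k ∈ range (2 ^ (i + 2) - 1), (q ^ (2 * (k + 1)) - 1) = Z * W ∧ Nat.Coprime Z W := by
    have hX : q ^ (3 * 2 ^ (i + 1)) - 1 = Z * (((q ^ 2 ^ i) ^ 3 - 1) * (q ^ 2 ^ i + 1)) := by
      have e3 : q ^ (3 * 2 ^ (i + 1)) = (q ^ 2 ^ i) ^ 6 := by rw [← pow_mul]; congr 1; ring
      have e4 : (q ^ 2 ^ i) ^ 6 - 1 = ((q ^ 2 ^ i) ^ 3 - 1) * ((q ^ 2 ^ i) ^ 3 + 1) := by
        rw [← sq_sub]; congr 1; ring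
      rw [e3, e4, cube_add, ← hZ]; ring
    have hc1 : Nat.Coprime Z ((q ^ 2 ^ i) ^ 3 - 1) := by
      rw [← pow_mul]
      apply H.cop_sub
      intro hd
      have := Nat.le_of_dvd (by positivity) hd
      omega
    have hc2 : Nat.Coprime Z (q ^ 2 ^ i + 1) := by
      apply H.cop_add
      left
      intro hd
      have := Nat.le_of_dvd (by positivity) hd
      omega
    refine prod_split (i0 := 3 * 2 ^ i - 1) (W0 := ((q ^ 2 ^ i) ^ 3 - 1) * (q ^ 2 ^ i + 1)) (by omega) ?_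
      (Nat.Coprime.mul_right hc1 hc2) ?_
    · rw [← hX]; congr 2; omega
    · intro k hk hk0
      apply H.cop_sub
      rintro ⟨t, ht⟩
      have : t ≤ 1 := by
        by_contra hcon
        have : 3 * 2 ^ (i + 1) * 2 ≤ 3 * 2 ^ (i + 1) * t := Nat.mul_le_mul_left _ (by omega)
        omega
      interval_cases t <;> omega
  obtain ⟨W, hW, hcop⟩ := hsplit
  refine ⟨(q ^ (2 ^ (i + 2)) - 1) * W, ?_, Nat.Coprime.mul_right (H.cop_sub h3) hcop, ?_⟩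
  · rw [hcof, hW]; ring
  · rw [hdd]; exact Nat.Coprime.coprime_dvd_right (Nat.gcd_dvd_left _ _) H.cop_four

end Cfsg.Agent.H437
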